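import Cfsg.Agent.H935.FiThree.Max

/-!
# `Fi23`: `w0` is in the ninth derived subgroup of the normalizer of `⟨w0⟩`
-/

set_option autoImplicit false
set_option maxRecDepth 100000
set_option linter.constructorNameAsVariable false

namespace Cfsg.Agent.H935.FiThree

open Subgroup Cfsg Cfsg.Agent.LThreeFi23
open Cfsg.Spor (Fi23)

/-! ### Abstract steps: elements of the derived subgroup of a subgroup -/

section

variable {G : Type*} [Group G]

theorem comm_mem {D : Subgroup G} {x y : G} (hx : x ∈ D) (hy : y ∈ D) : x * y * x⁻¹ * y⁻¹ ∈ ⁅D, D⁆ :=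
  commutator_mem_commutator hx hy

/-- `x y = c y x` -/
theorem mem_of_comm {D : Subgroup G} {x y c : G} (hx : x ∈ D) (hy : y ∈ D) (h : x * y = c * (y * x)) :
    c ∈ ⁅D, D⁆ := by
  have h1 : c = x * y * x⁻¹ * y⁻¹ := by rw [h]; group
  rw [h1]
  exact comm_mem hx hy

/-- an element of order 3 inverted by an element of the subgroup -/
theorem mem_of_inv {D : Subgroup G} {x t : G} (hx : x ∈ D) (ht : t ∈ D) (h3 : x * x * x = 1)
    (h : t * x = x⁻¹ * t) : x ∈ ⁅D, D⁆ := by
  have h1 : t * x * t⁻¹ * x⁻¹ = x := by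
    rw [h]
    calc x⁻¹ * t * t⁻¹ * x⁻¹ = x⁻¹ * x⁻¹ := by group
      _ = x⁻¹ * x⁻¹ * (x * x * x) := by rw [h3, mul_one]
      _ = x := by group
  rw [← h1]
  exact comm_mem ht hx

/-- `p, q` with `w p = q w` and `w q = p q w` -/
theorem mem_of_three {D : Subgroup G} {w p q : G} (hw : w ∈ D) (hp : p ∈ D) (hwp : w * p = q * w)
    (hwq : w * q = p * (q * w)) : p ∈ ⁅D, D⁆ ∧ q ∈ ⁅D, D⁆ := by
  have hq : q ∈ D := by
    have : q = w * p * w⁻¹ := by rw [hwp]; group
    rw [this]
    exact D.mul_mem (D.mul_mem hw hp) (D.inv_mem hw)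
  -- `w q w⁻¹ q⁻¹ = p`
  have h1 : w * q * w⁻¹ * q⁻¹ = p := by rw [hwq]; group
  have h2 : p ∈ ⁅D, D⁆ := by
    rw [← h1]
    exact comm_mem hw hq
  refine ⟨h2, ?_⟩
  have h3 : q = w * p * w⁻¹ * p⁻¹ * p := by rw [hwp]; group
  rw [h3]
  exact (⁅D, D⁆).mul_mem (comm_mem hw hp) h2

end

/-! ### The derived series -/

/-- the derived series of the normalizer as subgroups of `Fi23` -/
def DS : ℕ → Subgroup Fi23
  | 0 => NW
  | n + 1 => ⁅DS n, DS n⁆

theorem DS_eq (n : ℕ) : DS n = (derivedSeries ↥NW n).map NW.subtype := by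
  induction n with
  | zero =>
    rw [derivedSeries_zero, ← MonoidHom.range_eq_map, range_subtype]
    rfl
  | succ n ih =>
    change ⁅DS n, DS n⁆ = _
    rw [derivedSeries_succ, map_commutator, ← ih]

/-- the elements -/
abbrev eT0 : Fi23 := elw t0
abbrev eU1 : Fi23 := elw u1
abbrev eP : Fi23 := elw pp
abbrev eQ : Fi23 := elw qq
abbrev eTd : Fi23 := elw td
abbrev eTg : Fi23 := elw tg
abbrev eTh : Fi23 := elw th
abbrev eA : Fi23 := elw [.a]
abbrev eR : Fi23 := elw rr
abbrev eS : Fi23 := elw ss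
abbrev eW : Fi23 := elw ww
abbrev eU : Fi23 := elw uu4
abbrev eV : Fi23 := elw vv4

theorem elw_rv (l : List Lt) : elw (rv l) = (elw l)⁻¹ := elw_reverse l

theorem r_t0_w0 : eT0 * W = W⁻¹ * eT0 := by
  have h := t0_w0
  rwa [elw_append, elw_append, elw_rv] at h

theorem r_t0_u1 : eT0 * eU1 = eU1⁻¹ * eT0 := by
  have h := t0_u1
  rwa [elw_append, elw_append, elw_rv] at h

theorem cube_of {l : List Lt} (h : elw (l ++ l ++ l) = elw []) : elw l * elw l * elw l = 1 := by
  rwa [elw_append, elw_append, elw_nil] at h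

theorem r_qq : eQ = eU1 * eP * eU1⁻¹ := by
  unfold eQ qq
  rw [elw_append, elw_append, elw_rv]

theorem r_u1_p : eU1 * eP = eQ * eU1 := by
  rw [r_qq]; group

theorem r_u1_q : eU1 * eQ = eP * (eQ * eU1) := by
  have h := u1_qq
  rw [elw_append, elw_append, elw_append, elw_rv] at h
  change eU1 * eQ * eU1⁻¹ = eP * eQ at h
  rw [← mul_assoc, ← h]
  group

theorem r_p_q : eP * eQ = eA * eTd * (eQ * eP) := by
  have h := pp_qq
  rw [elw_append, elw_append, elw_append, elw_append] at h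
  rw [h]
  group

theorem r_atd_r : eA * eTd * eR = eR⁻¹ * (eA * eTd) := by
  have h := atd_rr
  rw [elw_append, elw_append, elw_append, elw_append, elw_rv] at h
  rw [h]
  group

theorem r_atd_s : eA * eTd * eS = eS⁻¹ * (eA * eTd) := by
  have h := atd_ss
  rw [elw_append, elw_append, elw_append, elw_append, elw_rv] at h
  rw [h]
  group

theorem r_r_s : eR * eS = eW * (eS * eR) := by
  have h := rr_ss
  rw [elw_append, elw_append, elw_append] at h
  rw [h]
  group

theorem r_w_u : eW * eU = eV * eW := by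
  have h := ww_uu
  rwa [elw_append, elw_append] at h

theorem r_w_v : eW * eV = eV * (eU * eW) := by
  have h := ww_vv
  rw [elw_append, elw_append, elw_append] at h
  rw [h]
  group

theorem r_u_v : eU * eV = eTd * (eV * eU) := by
  have h := uu_vv
  rw [elw_append, elw_append, elw_append] at h
  rw [h]
  group

/-- `u ∈ D'` from `w u = v w`, `w v = v u w` -/
theorem mem_of_three' {G : Type*} [Group G] {D : Subgroup G} {w u v : G} (hw : w ∈ D) (hu : u ∈ D)
    (h1 : w * u = v * w) (h2 : w * v = v * (u * w)) : u ∈ ⁅D, D⁆ ∧ v ∈ ⁅D, D⁆ := by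
  have hv : v ∈ D := by
    have : v = w * u * w⁻¹ := by rw [h1]; group
    rw [this]
    exact D.mul_mem (D.mul_mem hw hu) (D.inv_mem hw)
  -- `v⁻¹ w v w⁻¹ = u`
  have h3 : v⁻¹ * w * v⁻¹⁻¹ * w⁻¹ = u := by
    rw [inv_inv]
    calc v⁻¹ * w * v * w⁻¹ = v⁻¹ * (w * v) * w⁻¹ := by group
      _ = u := by rw [h2]; group
  have h4 : u ∈ ⁅D, D⁆ := by
    rw [← h3]
    exact comm_mem (D.inv_mem hv) hw
  refine ⟨h4, ?_⟩
  have h5 : v = w * u * w⁻¹ * u⁻¹ * u := by rw [h1]; group
  rw [h5]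
  exact (⁅D, D⁆).mul_mem (comm_mem hw hu) h4

/-! ### Membership in the normalizer -/

theorem mem_T0 : eT0 ∈ NW := by
  rw [mem_NW_iff]
  right
  rw [r_t0_w0]
  group

theorem mem_U1 : eU1 ∈ NW := elw_mem_NW u1_w0
theorem mem_P : eP ∈ NW := elw_mem_NW pp_w0
theorem mem_A : eA ∈ NW := elw_mem_NW a_w0
theorem mem_Td : eTd ∈ NW := elw_mem_NW td_w0
theorem mem_Tg : eTg ∈ NW := elw_mem_NW tg_w0
theorem mem_Th : eTh ∈ NW := elw_mem_NW th_w0
theorem mem_U : eU ∈ NW := elw_mem_NW uu_w0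

theorem mem_R : eR ∈ NW := by
  have h : eR = elw [.a] * elw [.b] := by
    rw [← elw_append]
    rfl
  rw [h]
  exact NW.mul_mem mem_A (elw_mem_NW b_w0)

theorem mem_S : eS ∈ NW := by
  have h : eS = elw [.a] * elw fs := by
    rw [← elw_append]
    rfl
  rw [h]
  exact NW.mul_mem mem_A (elw_mem_NW fs_w0)

/-! ### The chain -/

theorem DS_le {m n : ℕ} (h : m ≤ n) : DS n ≤ DS m := by
  induction n with
  | zero =>
    obtain rfl : m = 0 := by omega
    exact le_rfl
  | succ n ih =>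
    by_cases h' : m = n + 1
    · rw [h']
    · refine le_trans ?_ (ih (by omega))
      change ⁅DS n, DS n⁆ ≤ DS n
      exact commutator_le_self _

theorem u1_mem : eU1 ∈ DS 1 := mem_of_inv mem_U1 mem_T0 (cube_of u1_cube) r_t0_u1

theorem pq_mem : eP ∈ DS 2 ∧ eQ ∈ DS 2 := by
  have h1 := mem_of_three mem_U1 mem_P r_u1_p r_u1_q
  exact mem_of_three u1_mem h1.1 r_u1_p r_u1_q

theorem atd_mem : eA * eTd ∈ DS 3 := mem_of_comm pq_mem.1 pq_mem.2 r_p_q

/-- an element of order 3 of the normalizer inverted by an element of `DS n` is in `DS (n + 1)` -/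
theorem chain_inv {x t : Fi23} (hx : x ∈ NW) (n : ℕ) (ht : t ∈ DS n) (h3 : x * x * x = 1)
    (h : t * x = x⁻¹ * t) : x ∈ DS (n + 1) := by
  have key : ∀ m ≤ n + 1, x ∈ DS m := by
    intro m
    induction m with
    | zero => exact fun _ => hx
    | succ m ih =>
      intro hm
      exact mem_of_inv (ih (by omega)) (DS_le (by omega) ht) h3 h
  exact key _ le_rfl

theorem chain_three {w u v : Fi23} (hu : u ∈ NW) (n : ℕ) (hw : w ∈ DS n) (h1 : w * u = v * w)
    (h2 : w * v = v * (u * w)) : u ∈ DS (n + 1) ∧ v ∈ DS (n + 1) := by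
  have key : ∀ m ≤ n, u ∈ DS (m + 1) ∧ v ∈ DS (m + 1) := by
    intro m
    induction m with
    | zero => exact fun _ => mem_of_three' (DS_le (by omega) hw) hu h1 h2
    | succ m ih =>
      intro hm
      exact mem_of_three' (DS_le (by omega) hw) (ih (by omega)).1 h1 h2
  exact key n le_rfl

theorem r_mem : eR ∈ DS 4 := chain_inv mem_R 3 atd_mem (cube_of rr_cube) r_atd_r

theorem s_mem : eS ∈ DS 4 := chain_inv mem_S 3 atd_mem (cube_of ss_cube) r_atd_s

theorem w_mem : eW ∈ DS 5 := mem_of_comm r_mem s_mem r_r_s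

theorem uv_mem : eU ∈ DS 6 ∧ eV ∈ DS 6 := chain_three mem_U 5 w_mem r_w_u r_w_v

theorem td_mem : eTd ∈ DS 7 := mem_of_comm uv_mem.1 uv_mem.2 r_u_v

theorem sq_of {l : List Lt} (h : elw (l ++ l) = elw []) : elw l * elw l = 1 := by
  rwa [elw_append, elw_nil] at h

theorem mul_inv_of_invol {t s : Fi23} (ht : t * t = 1) (hs : s * s = 1) : t * (t * s) = (t * s)⁻¹ * t := by
  have h1 : t⁻¹ = t := inv_eq_of_mul_eq_one_left ht
  have h2 : s⁻¹ = s := inv_eq_of_mul_eq_one_left hs
  rw [mul_inv_rev, h1, h2, ← mul_assoc, ht, one_mul, mul_assoc, ht, mul_one]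

theorem xx_mem : eTd * eTg ∈ DS 8 := by
  refine chain_inv (NW.mul_mem mem_Td mem_Tg) 7 td_mem ?_ (mul_inv_of_invol (sq_of td_sq) (sq_of tg_sq))
  have h := xx_cube
  rw [elw_append, elw_append, elw_append, elw_append, elw_append, elw_nil] at h
  rw [← h]
  group

theorem yy_mem : eTd * eTh ∈ DS 8 := by
  refine chain_inv (NW.mul_mem mem_Td mem_Th) 7 td_mem ?_ (mul_inv_of_invol (sq_of td_sq) (sq_of th_sq))
  have h := yy_cube
  rw [elw_append, elw_append, elw_append, elw_append, elw_append, elw_nil] at h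
  rw [← h]
  group

/-- **`w0` is in the ninth derived subgroup of its normalizer** -/
theorem W_mem : W ∈ DS 9 := by
  refine mem_of_comm xx_mem yy_mem ?_
  have h := xx_yy
  simp only [elw_append] at h
  change eTd * eTg * eTd * eTh = W * eTd * eTh * eTd * eTg at h
  calc eTd * eTg * (eTd * eTh) = eTd * eTg * eTd * eTh := by group
    _ = W * eTd * eTh * eTd * eTg := h
    _ = W * (eTd * eTh * (eTd * eTg)) := by group

end Cfsg.Agent.H935.FiThree
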