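import Cfsg.Agent.H935.FiThree.Sol
import Cfsg.Agent.H935.FiThree.Wit

/-!
# `Fi23` has a solvable maximal subgroup of derived length at least 10
-/

set_option autoImplicit false
set_option linter.constructorNameAsVariable false

namespace Cfsg.Agent.H935.FiThree

open Subgroup Cfsg Cfsg.Agent.LThreeFi23
open Cfsg.Spor (Fi23)

theorem center_bot : Subgroup.center Fi23 = ⊥ := by
  rw [eq_bot_iff]
  intro w hw
  rw [mem_bot]
  exact eq_one_of_comm fun x => ((mem_center_iff.1 hw) (el x)).symm

theorem not_comm : ¬ IsMulCommutative Fi23 := by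
  intro h
  apply Fischer.Fi23Class.z0_ncomm
  exact h.is_comm.comm _ _

theorem ne_derived : derivedSeries ↥NW 10 ≠ derivedSeries ↥NW 9 := by
  intro h
  have h1 : ∀ n, derivedSeries ↥NW (9 + n) = derivedSeries ↥NW 9 := by
    intro n
    induction n with
    | zero => rfl
    | succ n ih =>
      rw [← add_assoc, derivedSeries_succ, ih, ← derivedSeries_succ]
      exact h
  obtain ⟨n, hn⟩ := NW_solvable
  have h2 : derivedSeries ↥NW (9 + n) = ⊥ := by
    rw [eq_bot_iff, ← hn]
    exact derivedSeries_antitone _ (by omega)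
  rw [h1] at h2
  have h3 := W_mem
  rw [DS_eq, h2, Subgroup.map_bot, mem_bot] at h3
  exact W_ne_one h3

theorem main :
    ∃ (G : Type) (_ : Group G) (_ : Finite G) (S H : Subgroup G), S.Normal ∧ IsSimpleGroup S ∧
      ¬ IsMulCommutative S ∧ Subgroup.centralizer (S : Set G) = ⊥ ∧ IsCoatom H ∧
      derivedSeries H 10 ≠ derivedSeries H 9 := by
  refine ⟨Fi23, inferInstance, finG, ⊤, NW, inferInstance, ?_, ?_, ?_, NW_isCoatom, ne_derived⟩
  · have := nsimple
    exact topEquiv.isSimpleGroup
  · intro h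
    apply not_comm
    refine ⟨⟨fun a b => ?_⟩⟩
    have h1 := h.is_comm.comm (⟨a, mem_top a⟩ : (⊤ : Subgroup Fi23)) ⟨b, mem_top b⟩
    exact congrArg Subtype.val h1
  · rw [← center_bot, coe_top, Subgroup.centralizer_univ]

end Cfsg.Agent.H935.FiThree
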